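import Mathlib
import Cfsg.Agent.Lib.Helper44.FW.Defs

/-!
# Project FW (S3211): package [PHI]

A square root `r` of `t₀ = x₀ (n x₀ n⁻¹)` in `C(j) ∩ C(t₀)` outside `L₁L₂` gives the square
root `r x₀` of `j`, different from `n`.
-/

set_option autoImplicit false

namespace Cfsg.Agent.Lib.Helper90.FW

open Cfsg.Agent.Lib.Helper44.FW

universe u

theorem zpowers_sq_cases {G : Type u} [Group G] {j d : G} (hjj : j * j = 1)
    (hd : d ∈ Subgroup.zpowers j) : d = 1 ∨ d = j := by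
  obtain ⟨k, rfl⟩ := Subgroup.mem_zpowers_iff.mp hd
  have h2 : j ^ (2 : ℤ) = 1 := by rw [zpow_two]; exact hjj
  rcases Int.even_or_odd' k with ⟨m, rfl | rfl⟩
  · left; rw [zpow_mul, h2, one_zpow]
  · right; rw [zpow_add_one, zpow_mul, h2, one_zpow, one_mul]

theorem pkgPhi : PkgPhi.{u} := by
  intro G _ L₁ L₂ j n h hInv x₀ hx₀ hx₀2 r hrC hrY hcomm hr2
  -- basic facts
  have hj2 : j ^ 2 = 1 := by have := pow_orderOf_eq_one j; rwa [h.ord] at this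
  have hjj : j * j = 1 := by rw [← pow_two]; exact hj2
  have hj1 : j ≠ 1 := by
    intro h1; have := h.ord; rw [h1, orderOf_one] at this; omega
  have hjinv : j⁻¹ = j := inv_eq_of_mul_eq_one_left hjj
  have hY_C : ∀ g ∈ L₁ ⊔ L₂, j * g = g * j := fun g hg =>
    (Subgroup.mem_centralizer_iff.mp (h.le hg)) j (Set.mem_singleton j)
  have hnj : j * n = n * j := (Subgroup.mem_centralizer_iff.mp h.hn) j (Set.mem_singleton j)
  have hnn : n * n = j := by rw [← pow_two]; exact h.hn2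
  have hxx : x₀ * x₀ = j := by rw [← pow_two]; exact hx₀2
  have hx₀Y : x₀ ∈ L₁ ⊔ L₂ := Subgroup.mem_sup_left hx₀
  have hx₀j : j * x₀ = x₀ * j := hY_C x₀ hx₀Y
  have hy₀ : n * x₀ * n⁻¹ ∈ L₂ := by
    have := Subgroup.mem_map_of_mem (MulAut.conj n).toMonoidHom hx₀
    rw [h.swap] at this
    simpa using this
  have hy₀j : j * (n * x₀ * n⁻¹) = (n * x₀ * n⁻¹) * j := hY_C _ (Subgroup.mem_sup_right hy₀)
  have hnx : n⁻¹ * x₀ * n = n * x₀ * n⁻¹ := by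
    have e1 : (n * n) * x₀ = x₀ * (n * n) := by rw [hnn]; exact hx₀j
    calc n⁻¹ * x₀ * n = n⁻¹ * (x₀ * (n * n)) * n⁻¹ := by group
      _ = n⁻¹ * ((n * n) * x₀) * n⁻¹ := by rw [e1]
      _ = n * x₀ * n⁻¹ := by group
  have hy₀2 : (n * x₀ * n⁻¹) * (n * x₀ * n⁻¹) = j := by
    calc (n * x₀ * n⁻¹) * (n * x₀ * n⁻¹) = n * (x₀ * x₀) * n⁻¹ := by group
      _ = n * j * n⁻¹ := by rw [hxx]
      _ = j * n * n⁻¹ := by rw [hnj]
      _ = j := by group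
  have hxy : x₀ * (n * x₀ * n⁻¹) = (n * x₀ * n⁻¹) * x₀ := h.comm x₀ hx₀ _ hy₀
  -- normalizers
  have hN1 : L₁ ⊔ L₂ ≤ Subgroup.normalizer (L₁ : Set G) := by
    refine sup_le Subgroup.le_normalizer ?_
    intro y hy
    rw [Subgroup.mem_normalizer_iff]
    intro x
    constructor
    · intro hx
      have e : y * x * y⁻¹ = x := by rw [← h.comm x hx y hy]; group
      rw [e]; exact hx
    · intro hx
      have hc := h.comm _ hx y⁻¹ (inv_mem hy)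
      have e : x = y * x * y⁻¹ := by
        calc x = y⁻¹ * (y * x * y⁻¹) * y := by group
          _ = (y * x * y⁻¹) * y⁻¹ * y := by rw [← hc]
          _ = y * x * y⁻¹ := by group
      rw [e]; exact hx
  have hN2 : L₁ ⊔ L₂ ≤ Subgroup.normalizer (L₂ : Set G) := by
    refine sup_le ?_ Subgroup.le_normalizer
    intro x hx
    rw [Subgroup.mem_normalizer_iff]
    intro y
    constructor
    · intro hy
      have e : x * y * x⁻¹ = y := by rw [h.comm x hx y hy]; group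
      rw [e]; exact hy
    · intro hy
      have hc := h.comm x⁻¹ (inv_mem hx) _ hy
      have e : y = x * y * x⁻¹ := by
        calc y = x⁻¹ * (x * y * x⁻¹) * x := by group
          _ = (x * y * x⁻¹) * x⁻¹ * x := by rw [hc]
          _ = x * y * x⁻¹ := by group
      rw [e]; exact hy
  -- `n ∉ L₁L₂`
  have hnY : n ∉ L₁ ⊔ L₂ := by
    intro hn
    have hnN := Subgroup.mem_normalizer_iff.mp (hN1 hn)
    have hy₀L1 : n * x₀ * n⁻¹ ∈ L₁ := (hnN x₀).mp hx₀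
    have hmem : n * x₀ * n⁻¹ ∈ L₁ ⊓ L₂ := ⟨hy₀L1, hy₀⟩
    rw [h.meet] at hmem
    rcases zpowers_sq_cases hjj hmem with h1 | h1
    · rw [h1, one_mul] at hy₀2; exact hj1 hy₀2.symm
    · rw [h1, hjj] at hy₀2; exact hj1 hy₀2.symm
  -- `n⁻¹ r ∈ L₁L₂`
  have hidx : ((L₁ ⊔ L₂).subgroupOf (Subgroup.centralizer ({j} : Set G))).index = 2 := h.idx
  have hw : n⁻¹ * r ∈ L₁ ⊔ L₂ := by
    have key := Subgroup.mul_mem_iff_of_index_two hidx
      (a := (⟨n⁻¹, inv_mem h.hn⟩ : ↥(Subgroup.centralizer ({j} : Set G)))) (b := ⟨r, hrC⟩)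
    rw [Subgroup.mem_subgroupOf, Subgroup.mem_subgroupOf, Subgroup.mem_subgroupOf] at key
    exact key.mpr ⟨fun hh => absurd (inv_mem_iff.mp hh) hnY, fun hh => absurd hh hrY⟩
  have hwinv : (n⁻¹ * r)⁻¹ ∈ L₁ ⊔ L₂ := inv_mem hw
  have hp : r⁻¹ * x₀ * r ∈ L₂ := by
    have e : r⁻¹ * x₀ * r = (n⁻¹ * r)⁻¹ * (n * x₀ * n⁻¹) * ((n⁻¹ * r)⁻¹)⁻¹ := by
      rw [← hnx]; group
    rw [e]
    exact (Subgroup.mem_normalizer_iff.mp (hN2 hwinv) _).mp hy₀
  have hq : r⁻¹ * (n * x₀ * n⁻¹) * r ∈ L₁ := by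
    have e : r⁻¹ * (n * x₀ * n⁻¹) * r = (n⁻¹ * r)⁻¹ * x₀ * ((n⁻¹ * r)⁻¹)⁻¹ := by group
    rw [e]
    exact (Subgroup.mem_normalizer_iff.mp (hN1 hwinv) _).mp hx₀
  -- abstract the elements
  obtain ⟨y₀, hy₀def⟩ : ∃ y₀, y₀ = n * x₀ * n⁻¹ := ⟨_, rfl⟩
  rw [← hy₀def] at hy₀ hy₀j hnx hy₀2 hxy hq hcomm hr2
  obtain ⟨p, hpdef⟩ : ∃ p, p = r⁻¹ * x₀ * r := ⟨_, rfl⟩
  obtain ⟨q, hqdef⟩ : ∃ q, q = r⁻¹ * y₀ * r := ⟨_, rfl⟩
  rw [← hpdef] at hp
  rw [← hqdef] at hq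
  have hrr : r * r = x₀ * y₀ := by rw [← pow_two]; exact hr2
  have hpq : p * q = x₀ * y₀ := by
    calc p * q = r⁻¹ * ((x₀ * y₀) * r) := by rw [hpdef, hqdef]; group
      _ = r⁻¹ * (r * (x₀ * y₀)) := by rw [hcomm]
      _ = x₀ * y₀ := by group
  have hqp : q * p = x₀ * y₀ := by rw [h.comm q hq p hp]; exact hpq
  have hδ1 : x₀⁻¹ * q ∈ L₁ := mul_mem (inv_mem hx₀) hq
  have hδeq : x₀⁻¹ * q = y₀ * p⁻¹ := by
    calc x₀⁻¹ * q = x₀⁻¹ * (q * p) * p⁻¹ := by group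
      _ = x₀⁻¹ * (x₀ * y₀) * p⁻¹ := by rw [hqp]
      _ = y₀ * p⁻¹ := by group
  have hδ2 : x₀⁻¹ * q ∈ L₂ := by rw [hδeq]; exact mul_mem hy₀ (inv_mem hp)
  have hδ : x₀⁻¹ * q ∈ Subgroup.zpowers j := by rw [← h.meet]; exact ⟨hδ1, hδ2⟩
  have hsq : (r * x₀) * (r * x₀) = x₀ * y₀ * p * x₀ := by
    calc (r * x₀) * (r * x₀) = (r * r) * (r⁻¹ * x₀ * r) * x₀ := by group
      _ = x₀ * y₀ * p * x₀ := by rw [hrr, ← hpdef]
  rcases zpowers_sq_cases hjj hδ with hd | hd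
  · -- `δ = 1`: then `r x₀` is an involution outside `L₁L₂`, impossible
    exfalso
    have hpy : p = y₀ := by
      have : y₀ * p⁻¹ = 1 := by rw [← hδeq]; exact hd
      have h3 : y₀ = p := by
        calc y₀ = y₀ * p⁻¹ * p := by group
          _ = p := by rw [this, one_mul]
      exact h3.symm
    have hsq1 : (r * x₀) ^ 2 = 1 := by
      rw [pow_two, hsq, hpy]
      calc x₀ * y₀ * y₀ * x₀ = x₀ * (y₀ * y₀) * x₀ := by group
        _ = x₀ * j * x₀ := by rw [hy₀2]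
        _ = j * x₀ * x₀ := by rw [hx₀j]
        _ = j * (x₀ * x₀) := by group
        _ = 1 := by rw [hxx, hjj]
    have hmemC : r * x₀ ∈ Subgroup.centralizer ({j} : Set G) := mul_mem hrC (h.le hx₀Y)
    have hne1 : r * x₀ ≠ 1 := by
      intro h1
      apply hrY
      have : r = x₀⁻¹ := eq_inv_of_mul_eq_one_left h1
      rw [this]; exact inv_mem hx₀Y
    have hnej : r * x₀ ≠ j := by
      intro h1
      apply hrY
      have : r = j * x₀⁻¹ := eq_mul_inv_of_mul_eq h1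
      rw [this]
      exact mul_mem (Subgroup.mem_sup_left (by
        have hjm : j ∈ L₁ ⊓ L₂ := by rw [h.meet]; exact Subgroup.mem_zpowers j
        exact hjm.1)) (inv_mem hx₀Y)
    obtain ⟨x, hx, y, hy, hrxy, -, -⟩ := hInv (r * x₀) hmemC hsq1 hne1 hnej
    apply hrY
    have : r = x * y * x₀⁻¹ := eq_mul_inv_of_mul_eq hrxy
    rw [this]
    exact mul_mem (mul_mem (Subgroup.mem_sup_left hx) (Subgroup.mem_sup_right hy)) (inv_mem hx₀Y)
  · -- `δ = j`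
    have hpy : p = j * y₀ := by
      have h3 : y₀ * p⁻¹ = j := by rw [← hδeq]; exact hd
      calc p = (y₀ * p⁻¹)⁻¹ * y₀ := by group
        _ = j * y₀ := by rw [h3, hjinv]
    constructor
    · rw [pow_two, hsq, hpy]
      calc x₀ * y₀ * (j * y₀) * x₀ = x₀ * (y₀ * j) * y₀ * x₀ := by group
        _ = x₀ * (j * y₀) * y₀ * x₀ := by rw [hy₀j]
        _ = x₀ * j * (y₀ * y₀) * x₀ := by group
        _ = x₀ * j * j * x₀ := by rw [hy₀2]
        _ = x₀ * (j * j) * x₀ := by group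
        _ = j := by rw [hjj, mul_one, hxx]
    · intro hrn
      have hr : r = n * x₀⁻¹ := eq_mul_inv_of_mul_eq hrn
      have hp2 : p = y₀ := by
        rw [hpdef, hr]
        calc (n * x₀⁻¹)⁻¹ * x₀ * (n * x₀⁻¹) = x₀ * (n⁻¹ * x₀ * n) * x₀⁻¹ := by group
          _ = x₀ * y₀ * x₀⁻¹ := by rw [hnx]
          _ = y₀ * x₀ * x₀⁻¹ := by rw [hxy]
          _ = y₀ := by group
      rw [hp2] at hpy
      apply hj1
      calc j = j * y₀ * y₀⁻¹ := by group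
        _ = y₀ * y₀⁻¹ := by rw [← hpy]
        _ = 1 := by group

end Cfsg.Agent.Lib.Helper90.FW
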